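import Cfsg.Agent.H992.HT.Trace
import Cfsg.Agent.H316.HT.Defs

/-!
# S4933, the consequence of the trace lemma for two constituents (helper992)

`pair_degree` : `Ind_Q^G ψ` has exactly the two constituents `X₁ ≠ X₂`, `Ind_{P₂}^M μ₂ = Y₁ + Y₂`: every `X_i(1)` is
`Y_j(1) / (Ind μ₂)(1) * (Ind ψ)(1)` for some `j`.
`pair_vd` : the same for the exponents of `p`, when `p` divides neither `Y₁(1)` nor `Y₂(1)`.
-/

set_option autoImplicit false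

namespace Cfsg.Agent.H992.HT

open Cfsg Cfsg.Agent.Characters.Core

universe u

theorem pair_degree {G : Type u} [Group G] [Fintype G] (Q M P₁ P₂ T : Subgroup G)
    [Fintype Q] [Fintype M] [Fintype P₁] [Fintype P₂] [Fintype T] [Fintype ↥(P₁ ⊓ P₂)]
    (h1Q : P₁ ≤ Q) (h2M : P₂ ≤ M) (h1T : P₁ ≤ T) (h2T : P₂ ≤ T) (hD : Q ⊓ M ≤ P₁ ⊓ P₂)
    (hcard : Nat.card P₁ = Nat.card P₂)
    (μ₁ : IrrCharacter P₁) (μ₂ : IrrCharacter P₂) (ν : IrrCharacter ↥(P₁ ⊓ P₂))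
    (hν1 : ∀ d : ↥(P₁ ⊓ P₂), (μ₁ : P₁ → ℂ) ⟨d, d.2.1⟩ = (ν : ↥(P₁ ⊓ P₂) → ℂ) d)
    (hν2 : ∀ d : ↥(P₁ ⊓ P₂), (μ₂ : P₂ → ℂ) ⟨d, d.2.2⟩ = (ν : ↥(P₁ ⊓ P₂) → ℂ) d)
    (κ : IrrCharacter T) (hκ : classInner (fun x : P₁ => (κ : T → ℂ) ⟨x, h1T x.2⟩) (μ₁ : P₁ → ℂ) ≠ 0)
    (hκ1 : (κ : T → ℂ) 1 * Nat.card P₁ = Nat.card T * (μ₁ : P₁ → ℂ) 1)
    (ψ : IrrCharacter Q) (hψ : classInner (fun x : P₁ => (ψ : Q → ℂ) ⟨x, h1Q x.2⟩) (μ₁ : P₁ → ℂ) = 1)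
    (Y₁ Y₂ : IrrCharacter M)
    (hy₁ : classInner (fun x : P₂ => (Y₁ : M → ℂ) ⟨x, h2M x.2⟩) (μ₂ : P₂ → ℂ) = 1)
    (hY : ((Y₁ : M → ℂ) 1 + (Y₂ : M → ℂ) 1) * Nat.card P₂ = Nat.card M * (μ₂ : P₂ → ℂ) 1)
    (hX : ∀ X : IrrCharacter G, classInner (fun x : Q => (X : G → ℂ) x) (ψ : Q → ℂ) ≠ 0 →
      classInner (fun x : P₁ => (X : G → ℂ) x) (μ₁ : P₁ → ℂ) = 1)
    (X₁ X₂ : IrrCharacter G) (hne : X₁ ≠ X₂)
    (hset : ∀ X : IrrCharacter G, classInner (fun x : Q => (X : G → ℂ) x) (ψ : Q → ℂ) ≠ 0 ↔ X = X₁ ∨ X = X₂)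
    (hdeg : ((X₁ : G → ℂ) 1 + (X₂ : G → ℂ) 1) * Nat.card Q = Nat.card G * (ψ : Q → ℂ) 1)
    (X : IrrCharacter G) (hXX : X = X₁ ∨ X = X₂) :
    ∃ Y : IrrCharacter M, (Y = Y₁ ∨ Y = Y₂) ∧
      (X : G → ℂ) 1 * (Nat.card M * (μ₂ : P₂ → ℂ) 1) * Nat.card Q =
        (Y : M → ℂ) 1 * Nat.card P₂ * (Nat.card G * (ψ : Q → ℂ) 1) := by
  classical
  have hP2 : (Nat.card P₂ : ℂ) ≠ 0 := card_ne_zero_complex
  have hcG : (Nat.card G : ℂ) ≠ 0 := card_ne_zero_complex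
  have hcQ : (Nat.card Q : ℂ) ≠ 0 := card_ne_zero_complex
  have hcM : (Nat.card M : ℂ) ≠ 0 := card_ne_zero_complex
  have hm2 : (μ₂ : P₂ → ℂ) 1 ≠ 0 := isIrr_apply_one_ne_zero μ₂.2
  have hps : (ψ : Q → ℂ) 1 ≠ 0 := isIrr_apply_one_ne_zero ψ.2
  have key : ∀ y : IrrCharacter M, classInner (fun x : P₂ => (y : M → ℂ) ⟨x, h2M x.2⟩) (μ₂ : P₂ → ℂ) = 1 →
      ∑ᶠ X ∈ {X : IrrCharacter G | classInner (fun x : Q => (X : G → ℂ) x) (ψ : Q → ℂ) ≠ 0 ∧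
        classInner (fun x : M => (X : G → ℂ) x) (y : M → ℂ) ≠ 0}, (X : G → ℂ) 1 =
      ((y : M → ℂ) 1 * Nat.card P₂ / (Nat.card M * (μ₂ : P₂ → ℂ) 1)) *
        (Nat.card G * (ψ : Q → ℂ) 1 / Nat.card Q) := fun y hy =>
    trace_lemma Q M P₁ P₂ T h1Q h2M h1T h2T hD hcard μ₁ μ₂ ν hν1 hν2 κ hκ hκ1 ψ hψ y hy hX
  have hsum : ∀ y : IrrCharacter M,
      ∑ᶠ X ∈ {X : IrrCharacter G | classInner (fun x : Q => (X : G → ℂ) x) (ψ : Q → ℂ) ≠ 0 ∧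
        classInner (fun x : M => (X : G → ℂ) x) (y : M → ℂ) ≠ 0}, (X : G → ℂ) 1 =
      (if classInner (fun x : M => (X₁ : G → ℂ) x) (y : M → ℂ) ≠ 0 then (X₁ : G → ℂ) 1 else 0) +
      (if classInner (fun x : M => (X₂ : G → ℂ) x) (y : M → ℂ) ≠ 0 then (X₂ : G → ℂ) 1 else 0) := by
    intro y
    have hS : {X : IrrCharacter G | classInner (fun x : Q => (X : G → ℂ) x) (ψ : Q → ℂ) ≠ 0 ∧
        classInner (fun x : M => (X : G → ℂ) x) (y : M → ℂ) ≠ 0} =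
        (({X₁, X₂} : Finset (IrrCharacter G)).filter fun X => classInner (fun x : M => (X : G → ℂ) x) (y : M → ℂ) ≠ 0 :
          Finset (IrrCharacter G)) := by
      ext X
      simp only [Finset.coe_filter, Finset.mem_insert, Finset.mem_singleton]
      exact and_congr_left fun _ => hset X
    rw [hS, finsum_mem_coe_finset, Finset.sum_filter, Finset.sum_pair hne]
  -- the two degrees
  have e1 := (hsum Y₁).symm.trans (key Y₁ hy₁)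
  have hY1 : (Y₁ : M → ℂ) 1 ≠ 0 := isIrr_apply_one_ne_zero Y₁.2
  have hY2 : (Y₂ : M → ℂ) 1 ≠ 0 := isIrr_apply_one_ne_zero Y₂.2
  have t1 : (Y₁ : M → ℂ) 1 * Nat.card P₂ / (Nat.card M * (μ₂ : P₂ → ℂ) 1) +
      (Y₂ : M → ℂ) 1 * Nat.card P₂ / (Nat.card M * (μ₂ : P₂ → ℂ) 1) = 1 := by
    rw [← add_div, ← add_mul, hY, div_self (mul_ne_zero hcM hm2)]
  have hR : (X₁ : G → ℂ) 1 + (X₂ : G → ℂ) 1 = Nat.card G * (ψ : Q → ℂ) 1 / Nat.card Q := by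
    rw [← hdeg, mul_div_cancel_right₀ _ hcQ]
  have hRne : (Nat.card G * (ψ : Q → ℂ) 1 / Nat.card Q : ℂ) ≠ 0 := div_ne_zero (mul_ne_zero hcG hps) hcQ
  set R : ℂ := Nat.card G * (ψ : Q → ℂ) 1 / Nat.card Q with hRdef
  set a : ℂ := (Y₁ : M → ℂ) 1 * Nat.card P₂ / (Nat.card M * (μ₂ : P₂ → ℂ) 1) with ha
  set b : ℂ := (Y₂ : M → ℂ) 1 * Nat.card P₂ / (Nat.card M * (μ₂ : P₂ → ℂ) 1) with hb
  have ha0 : a ≠ 0 := div_ne_zero (mul_ne_zero hY1 hP2) (mul_ne_zero hcM hm2)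
  have hb0 : b ≠ 0 := div_ne_zero (mul_ne_zero hY2 hP2) (mul_ne_zero hcM hm2)
  have main : ((X₁ : G → ℂ) 1 = a * R ∧ (X₂ : G → ℂ) 1 = b * R) ∨ ((X₁ : G → ℂ) 1 = b * R ∧ (X₂ : G → ℂ) 1 = a * R) := by
    have hbR : b * R = R - a * R := by
      rw [show b = 1 - a by rw [← t1]; ring]; ring
    split_ifs at e1 with h1 h2 h2
    · exfalso
      rw [hR] at e1
      have h3 : (1 - a) * R = 0 := by rw [sub_mul, one_mul, ← e1, sub_self]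
      rcases mul_eq_zero.1 h3 with h4 | h4
      · exact hb0 (by rw [← h4, ← t1]; ring)
      · exact hRne h4
    · left
      rw [add_zero] at e1
      refine ⟨e1, ?_⟩
      rw [hbR, ← e1, ← hR]
      ring
    · right
      rw [zero_add] at e1
      refine ⟨?_, e1⟩
      rw [hbR, ← e1, ← hR]
      ring
    · exfalso
      rw [add_zero] at e1
      exact mul_ne_zero ha0 hRne e1.symm
  have fin : ∀ (x : ℂ) (Y : IrrCharacter M),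
      x = (Y : M → ℂ) 1 * Nat.card P₂ / (Nat.card M * (μ₂ : P₂ → ℂ) 1) * R →
      x * (Nat.card M * (μ₂ : P₂ → ℂ) 1) * Nat.card Q = (Y : M → ℂ) 1 * Nat.card P₂ * (Nat.card G * (ψ : Q → ℂ) 1) := by
    intro x Y hx
    rw [hx, hRdef]
    field_simp
  rcases hXX with rfl | rfl
  · rcases main with ⟨h1, -⟩ | ⟨h1, -⟩
    · exact ⟨Y₁, Or.inl rfl, fin _ _ h1⟩
    · exact ⟨Y₂, Or.inr rfl, fin _ _ h1⟩
  · rcases main with ⟨-, h1⟩ | ⟨-, h1⟩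
    · exact ⟨Y₂, Or.inr rfl, fin _ _ h1⟩
    · exact ⟨Y₁, Or.inl rfl, fin _ _ h1⟩

theorem cast_charDegree {G : Type u} [Group G] (χ : IrrCharacter G) : ((charDegree (χ : G → ℂ) : ℕ) : ℂ) = (χ : G → ℂ) 1 := by
  obtain ⟨n, -, hn⟩ := isIrr_apply_one χ.2
  unfold charDegree
  rw [hn, Complex.natCast_re, Nat.floor_natCast]

theorem charDegree_ne_zero {G : Type u} [Group G] (χ : IrrCharacter G) : charDegree (χ : G → ℂ) ≠ 0 := by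
  intro h
  have h1 := cast_charDegree χ
  rw [h, Nat.cast_zero] at h1
  exact isIrr_apply_one_ne_zero χ.2 h1.symm

/-- the exponents of `p` -/
theorem pair_vd {G : Type u} [Group G] [Fintype G] (Q M P₁ P₂ T : Subgroup G)
    [Fintype Q] [Fintype M] [Fintype P₁] [Fintype P₂] [Fintype T] [Fintype ↥(P₁ ⊓ P₂)]
    (h1Q : P₁ ≤ Q) (h2M : P₂ ≤ M) (h1T : P₁ ≤ T) (h2T : P₂ ≤ T) (hD : Q ⊓ M ≤ P₁ ⊓ P₂)
    (hcard : Nat.card P₁ = Nat.card P₂)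
    (μ₁ : IrrCharacter P₁) (μ₂ : IrrCharacter P₂) (ν : IrrCharacter ↥(P₁ ⊓ P₂))
    (hν1 : ∀ d : ↥(P₁ ⊓ P₂), (μ₁ : P₁ → ℂ) ⟨d, d.2.1⟩ = (ν : ↥(P₁ ⊓ P₂) → ℂ) d)
    (hν2 : ∀ d : ↥(P₁ ⊓ P₂), (μ₂ : P₂ → ℂ) ⟨d, d.2.2⟩ = (ν : ↥(P₁ ⊓ P₂) → ℂ) d)
    (κ : IrrCharacter T) (hκ : classInner (fun x : P₁ => (κ : T → ℂ) ⟨x, h1T x.2⟩) (μ₁ : P₁ → ℂ) ≠ 0)
    (hκ1 : (κ : T → ℂ) 1 * Nat.card P₁ = Nat.card T * (μ₁ : P₁ → ℂ) 1)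
    (ψ : IrrCharacter Q) (hψ : classInner (fun x : P₁ => (ψ : Q → ℂ) ⟨x, h1Q x.2⟩) (μ₁ : P₁ → ℂ) = 1)
    (Y₁ Y₂ : IrrCharacter M)
    (hy₁ : classInner (fun x : P₂ => (Y₁ : M → ℂ) ⟨x, h2M x.2⟩) (μ₂ : P₂ → ℂ) = 1)
    (hY : ((Y₁ : M → ℂ) 1 + (Y₂ : M → ℂ) 1) * Nat.card P₂ = Nat.card M * (μ₂ : P₂ → ℂ) 1)
    (hX : ∀ X : IrrCharacter G, classInner (fun x : Q => (X : G → ℂ) x) (ψ : Q → ℂ) ≠ 0 →
      classInner (fun x : P₁ => (X : G → ℂ) x) (μ₁ : P₁ → ℂ) = 1)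
    (X₁ X₂ : IrrCharacter G) (hne : X₁ ≠ X₂)
    (hset : ∀ X : IrrCharacter G, classInner (fun x : Q => (X : G → ℂ) x) (ψ : Q → ℂ) ≠ 0 ↔ X = X₁ ∨ X = X₂)
    (hdeg : ((X₁ : G → ℂ) 1 + (X₂ : G → ℂ) 1) * Nat.card Q = Nat.card G * (ψ : Q → ℂ) 1)
    {p : ℕ} (hp1 : ¬ p ∣ charDegree (Y₁ : M → ℂ)) (hp2 : ¬ p ∣ charDegree (Y₂ : M → ℂ))
    {oG oM x : ℕ} (hoG : Nat.card G = Nat.card Q * oG) (hoM : Nat.card M = Nat.card P₂ * oM) (hx : x ≠ 0)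
    (hψx : (ψ : Q → ℂ) 1 = (μ₂ : P₂ → ℂ) 1 * x) (X : IrrCharacter G) (hXX : X = X₁ ∨ X = X₂) :
    H316.HT.vd p (X : G → ℂ) + oM.factorization p = x.factorization p + oG.factorization p := by
  obtain ⟨Y, hYY, h1⟩ := pair_degree Q M P₁ P₂ T h1Q h2M h1T h2T hD hcard μ₁ μ₂ ν hν1 hν2 κ hκ hκ1 ψ hψ Y₁ Y₂ hy₁
    hY hX X₁ X₂ hne hset hdeg X hXX
  have hP2 : (Nat.card P₂ : ℂ) ≠ 0 := card_ne_zero_complex
  have hcQ : (Nat.card Q : ℂ) ≠ 0 := card_ne_zero_complex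
  have hm2 : (μ₂ : P₂ → ℂ) 1 ≠ 0 := isIrr_apply_one_ne_zero μ₂.2
  have hpY : ¬ p ∣ charDegree (Y : M → ℂ) := by
    rcases hYY with rfl | rfl
    · exact hp1
    · exact hp2
  have hoG0 : oG ≠ 0 := by
    rintro rfl
    rw [mul_zero] at hoG
    exact Nat.card_pos.ne' hoG
  have hoM0 : oM ≠ 0 := by
    rintro rfl
    rw [mul_zero] at hoM
    exact Nat.card_pos.ne' hoM
  rw [hψx, hoG, hoM, ← cast_charDegree X, ← cast_charDegree Y] at h1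
  push_cast at h1
  have h2 : ((charDegree (X : G → ℂ) * oM : ℕ) : ℂ) = ((charDegree (Y : M → ℂ) * (x * oG) : ℕ) : ℂ) := by
    push_cast
    have h3 : (Nat.card P₂ : ℂ) * (Nat.card Q : ℂ) * (μ₂ : P₂ → ℂ) 1 ≠ 0 := mul_ne_zero (mul_ne_zero hP2 hcQ) hm2
    refine mul_left_cancel₀ h3 ?_
    linear_combination h1
  have h3 : charDegree (X : G → ℂ) * oM = charDegree (Y : M → ℂ) * (x * oG) := by exact_mod_cast h2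
  have h4 := congrArg (fun n : ℕ => n.factorization p) h3
  rw [Nat.factorization_mul (charDegree_ne_zero X) hoM0,
    Nat.factorization_mul (charDegree_ne_zero Y) (mul_ne_zero hx hoG0), Nat.factorization_mul hx hoG0,
    Finsupp.add_apply, Finsupp.add_apply, Finsupp.add_apply, Nat.factorization_eq_zero_of_not_dvd hpY, zero_add] at h4
  exact h4

end Cfsg.Agent.H992.HT
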