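import Cfsg.Agent.Blocks.GroupAlg
import Cfsg.Agent.Blocks.ModularTraces
import Cfsg.Agent.Characters.Counting

/-!
# S4933, box T1: the trace lemma (statement and proof: helper47; typed by helper992)

Everything happens in the complex group algebra; `lin χ e` is the multiplicity of `χ` in `ℂG e` for an idempotent `e`.

* `exists_prim` : a primitive idempotent affording an irreducible character;
* `rank_one` : idempotents of multiplicity one are primitive;
* `trace_lemma` : T1.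
-/

set_option autoImplicit false
set_option linter.unusedSectionVars false

open scoped ComplexConjugate

namespace Cfsg.Agent.H992.HT

open Cfsg Cfsg.Agent.Characters.Core Cfsg.Agent.Blocks.GroupAlg

universe u

variable {G : Type u} [Group G] [Finite G]

/-- the multiplicities are natural numbers -/
theorem exists_nat {χ : G → ℂ} (hχ : IsIrrCharacter G χ) {e : MonoidAlgebra ℂ G} (he : e * e = e) :
    ∃ m : ℕ, lin χ e = m := by
  obtain ⟨n, ρ, hρ, rfl⟩ := hχ
  rw [← trace_asAlgebraHom]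
  have h1 : IsIdempotentElem (ρ.asAlgebraHom e) := by
    unfold IsIdempotentElem
    rw [← map_mul, he]
  exact ⟨_, (LinearMap.IsIdempotentElem.isProj_range _ h1).trace⟩

theorem lin_comm {χ : G → ℂ} (hχ : IsIrrCharacter G χ) (a b : MonoidAlgebra ℂ G) :
    lin χ (a * b) = lin χ (b * a) := by
  refine lin_mul_comm (fun g h => ?_) a b
  have := isIrr_isClassFunction hχ (g * h) g⁻¹
  rw [← this]
  congr 1
  group

/-- the coefficient at `1` -/
theorem coeff_one (a : MonoidAlgebra ℂ G) [Fintype (IrrCharacter G)] :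
    (Nat.card G : ℂ) * a.coeff 1 = ∑ χ : IrrCharacter G, (χ : G → ℂ) 1 * lin (χ : G → ℂ) a := by
  classical
  have := Fintype.ofFinite G
  simp only [lin_apply, Finset.mul_sum]
  rw [Finset.sum_comm]
  have h1 : ∀ g : G, ∑ χ : IrrCharacter G, (χ : G → ℂ) 1 * (a.coeff g * (χ : G → ℂ) g) =
      a.coeff g * if g = 1 then (Nat.card G : ℂ) else 0 := by
    intro g
    rw [← Characters.Counting.sum_irr_one_mul g, Finset.mul_sum]
    refine Finset.sum_congr rfl fun χ _ => ?_
    ring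
  rw [Finset.sum_congr rfl fun g _ => h1 g]
  simp [mul_comm]

theorem coeff_mul_single (a : MonoidAlgebra ℂ G) (g : G) :
    (a * MonoidAlgebra.single g⁻¹ 1).coeff 1 = a.coeff g := by
  rw [MonoidAlgebra.coeff_mul_single_apply, one_mul, inv_inv, mul_one]

/-- an element killed by all irreducible representations is zero -/
theorem eq_zero_of_rep {a : MonoidAlgebra ℂ G}
    (h : ∀ (n : ℕ) (ρ : Representation ℂ G (Fin n → ℂ)), ρ.IsIrreducible → ρ.asAlgebraHom a = 0) : a = 0 := by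
  classical
  have := finite_irr (G := G)
  have := Fintype.ofFinite (IrrCharacter G)
  have hG : (Nat.card G : ℂ) ≠ 0 := card_ne_zero_complex
  ext g
  have h1 : (Nat.card G : ℂ) * (a * MonoidAlgebra.single g⁻¹ 1).coeff 1 = 0 := by
    rw [coeff_one]
    refine Finset.sum_eq_zero fun χ _ => ?_
    obtain ⟨n, ρ, hρ, hχ⟩ := χ.2
    rw [← hχ, ← trace_asAlgebraHom, map_mul, h n ρ hρ, zero_mul, map_zero, mul_zero]
  rw [coeff_mul_single] at h1
  have h2 := (mul_eq_zero.1 h1).resolve_left hG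
  rw [h2]
  rfl

/-- an idempotent with all multiplicities `0` is `0` -/
theorem idem_eq_zero {t : MonoidAlgebra ℂ G} (ht : t * t = t) (h : ∀ χ : IrrCharacter G, lin (χ : G → ℂ) t = 0) :
    t = 0 := by
  refine eq_zero_of_rep fun n ρ hρ => ?_
  have h1 : IsIdempotentElem (ρ.asAlgebraHom t) := by
    unfold IsIdempotentElem
    rw [← map_mul, ht]
  refine LinearMap.IsIdempotentElem.eq_zero_of_trace_eq_zero h1 ?_
  rw [trace_asAlgebraHom]
  exact h ⟨ρ.character, n, ρ, hρ, rfl⟩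

theorem lin_idem_mul (A : Set (IrrCharacter G)) [DecidablePred (· ∈ A)] (χ : IrrCharacter G) (b : MonoidAlgebra ℂ G) :
    lin (χ : G → ℂ) (idem A * b) = if χ ∈ A then lin (χ : G → ℂ) b else 0 := by
  rw [lin_mul_of_mem_center χ.2 (idem_mem_center A), omega_idem]
  split_ifs <;> simp

theorem idem_comm (A : Set (IrrCharacter G)) (b : MonoidAlgebra ℂ G) : idem A * b = b * idem A :=
  ((Subalgebra.mem_center_iff.1 (idem_mem_center A)) b).symm

/-- a rank one idempotent -/
theorem rank_one_end {V : Type*} [AddCommGroup V] [Module ℂ V] [FiniteDimensional ℂ V] {P : Module.End ℂ V}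
    (hP : P * P = P) (h1 : LinearMap.trace ℂ V P = 1) (X : Module.End ℂ V) :
    P * X * P = LinearMap.trace ℂ V (X * P) • P := by
  have h2 : IsIdempotentElem P := hP
  have h3 := (LinearMap.IsIdempotentElem.isProj_range _ h2).trace
  rw [h1] at h3
  have h4 : Module.finrank ℂ (LinearMap.range P) = 1 := by exact_mod_cast h3.symm
  obtain ⟨v, hv, hspan⟩ := finrank_eq_one_iff'.1 h4
  have hPv : P (v : V) = v := by
    obtain ⟨w, hw⟩ := v.2
    rw [← hw]
    exact LinearMap.congr_fun hP w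
  have key : ∀ w : V, ∃ c : ℂ, P w = c • (v : V) := by
    intro w
    obtain ⟨c, hc⟩ := hspan ⟨P w, w, rfl⟩
    exact ⟨c, (congrArg Subtype.val hc).symm⟩
  obtain ⟨c, hc⟩ := key (X v)
  have h5 : P * X * P = c • P := by
    ext w
    obtain ⟨d, hd⟩ := key w
    simp only [Module.End.mul_apply, LinearMap.smul_apply]
    rw [hd, map_smul, map_smul, hc, smul_comm]
  have h6 : LinearMap.trace ℂ V (X * P) = c := by
    have h7 : LinearMap.trace ℂ V (P * X * P) = LinearMap.trace ℂ V (X * P) := by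
      rw [mul_assoc, LinearMap.trace_mul_comm, mul_assoc, hP]
    rw [← h7, h5, map_smul, h1, smul_eq_mul, mul_one]
  rw [h6, h5]

/-- an idempotent of multiplicity one is primitive -/
theorem rank_one {g : MonoidAlgebra ℂ G} (hg : g * g = g) {χ₀ : IrrCharacter G} (h0 : lin (χ₀ : G → ℂ) g = 1)
    (hne : ∀ χ : IrrCharacter G, χ ≠ χ₀ → lin (χ : G → ℂ) g = 0) (x : MonoidAlgebra ℂ G) :
    ∃ c : ℂ, g * x * g = c • g := by
  refine ⟨lin (χ₀ : G → ℂ) (x * g), ?_⟩
  rw [← sub_eq_zero]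
  refine eq_zero_of_rep fun n ρ hρ => ?_
  rw [map_sub, map_smul, map_mul, map_mul]
  have h1 : ρ.asAlgebraHom g * ρ.asAlgebraHom g = ρ.asAlgebraHom g := by rw [← map_mul, hg]
  by_cases hχ : (⟨ρ.character, n, ρ, hρ, rfl⟩ : IrrCharacter G) = χ₀
  · have h2 : LinearMap.trace ℂ _ (ρ.asAlgebraHom g) = 1 := by
      rw [trace_asAlgebraHom, ← h0, ← hχ]
    have h3 : lin (χ₀ : G → ℂ) (x * g) = LinearMap.trace ℂ _ (ρ.asAlgebraHom x * ρ.asAlgebraHom g) := by
      rw [← map_mul, trace_asAlgebraHom, ← hχ]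
    rw [rank_one_end h1 h2, h3, sub_self]
  · have h2 : ρ.asAlgebraHom g = 0 := by
      refine LinearMap.IsIdempotentElem.eq_zero_of_trace_eq_zero h1 ?_
      rw [trace_asAlgebraHom]
      exact hne _ hχ
    rw [h2]
    simp

/-- two conjugate idempotents have the same multiplicities -/
theorem lin_eq_of_conj {e e2 : MonoidAlgebra ℂ G} (he : e * e = e) (he2 : e2 * e2 = e2) {lam : ℂ} (hlam : lam ≠ 0)
    (h1 : e * e2 * e = lam • e) (h2 : e2 * e * e2 = lam • e2) (χ : IrrCharacter G) :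
    lin (χ : G → ℂ) e2 = lin (χ : G → ℂ) e := by
  have h3 : lam * lin (χ : G → ℂ) e2 = lin (χ : G → ℂ) (e * e2) := by
    rw [← smul_eq_mul, ← map_smul, ← h2, lin_comm χ.2, ← mul_assoc, he2, lin_comm χ.2]
  have h4 : lam * lin (χ : G → ℂ) e = lin (χ : G → ℂ) (e * e2) := by
    rw [← smul_eq_mul, ← map_smul, ← h1, lin_comm χ.2, ← mul_assoc, he]
  exact mul_left_cancel₀ hlam (h3.trans h4.symm)

theorem coeff_one_comm (a b : MonoidAlgebra ℂ G) : (a * b).coeff 1 = (b * a).coeff 1 := by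
  have := finite_irr (G := G)
  have := Fintype.ofFinite (IrrCharacter G)
  have hG : (Nat.card G : ℂ) ≠ 0 := card_ne_zero_complex
  refine mul_left_cancel₀ hG ?_
  rw [coeff_one, coeff_one]
  exact Finset.sum_congr rfl fun χ _ => by rw [lin_comm χ.2]


/-- the basis element -/
noncomputable abbrev sg (g : G) : MonoidAlgebra ℂ G := MonoidAlgebra.single g 1

theorem sg_mul (g h : G) : sg g * sg h = sg (g * h) := by
  rw [MonoidAlgebra.single_mul_single, mul_one]

theorem sg_one : sg (1 : G) = 1 := rfl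

theorem eq_sum [Fintype G] (a : MonoidAlgebra ℂ G) : a = ∑ g : G, a.coeff g • sg g := by
  induction a using MonoidAlgebra.induction_linear with
  | zero => simp
  | add x y hx hy =>
    conv_lhs => rw [hx, hy]
    rw [← Finset.sum_add_distrib]
    refine Finset.sum_congr rfl fun g _ => ?_
    rw [MonoidAlgebra.coeff_add, Finsupp.add_apply, add_smul]
  | single g r =>
    classical
    rw [Finset.sum_eq_single g]
    · rw [MonoidAlgebra.coeff_single, Finsupp.single_eq_same, MonoidAlgebra.smul_single, smul_eq_mul, mul_one]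
    · intro b _ hb
      rw [MonoidAlgebra.coeff_single, Finsupp.single_eq_of_ne (by simpa using hb), zero_smul]
    · exact fun h => absurd (Finset.mem_univ _) h

/-! ### Idempotents affording a class function -/

/-- `lin φ f = ⟨φ, θ⟩` for all class functions `φ` -/
def Aff [Fintype G] (f : MonoidAlgebra ℂ G) (θ : G → ℂ) : Prop :=
  ∀ φ : G → ℂ, IsClassFunction G φ → lin φ f = classInner φ θ

theorem aff_of_irr [Fintype G] {f : MonoidAlgebra ℂ G} {θ : G → ℂ}
    (h : ∀ χ : IrrCharacter G, lin (χ : G → ℂ) f = classInner (χ : G → ℂ) θ) : Aff f θ := by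
  classical
  have := finite_irr (G := G)
  have := Fintype.ofFinite (IrrCharacter G)
  intro φ hφ
  have h1 := classFunction_eq_sum hφ
  have h2 : lin φ f = ∑ χ : IrrCharacter G, classInner φ (χ : G → ℂ) * lin (χ : G → ℂ) f := by
    conv_lhs => rw [h1]
    simp only [lin_apply, Finset.sum_apply, Pi.smul_apply, smul_eq_mul, Finset.mul_sum]
    rw [Finset.sum_comm]
    refine Finset.sum_congr rfl fun χ _ => Finset.sum_congr rfl fun g _ => ?_
    ring
  have h3 : classInner φ θ = ∑ χ : IrrCharacter G, classInner φ (χ : G → ℂ) * classInner (χ : G → ℂ) θ := by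
    conv_lhs => rw [h1]
    rw [classInner_sum_left]
    refine Finset.sum_congr rfl fun χ _ => ?_
    rw [classInner_smul_left]
  rw [h2, h3]
  exact Finset.sum_congr rfl fun χ _ => by rw [h]

/-- a primitive idempotent affording `ρ` -/
theorem exists_prim (ρ : IrrCharacter G) : ∃ f : MonoidAlgebra ℂ G, f * f = f ∧
    ∀ χ : IrrCharacter G, lin (χ : G → ℂ) f = (open scoped Classical in if χ = ρ then 1 else 0) := by
  classical
  obtain ⟨n, σ, hσ, hρ⟩ := ρ.2
  have hn : 0 < n := by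
    rcases Nat.eq_zero_or_pos n with rfl | h
    · exfalso
      have h1 := isIrr_apply_one_ne_zero ρ.2
      rw [← hρ, Representation.char_one] at h1
      simp at h1
    · exact h
  -- the rank one projection
  let i0 : Fin n := ⟨0, hn⟩
  let T : Module.End ℂ (Fin n → ℂ) := (LinearMap.single ℂ (fun _ : Fin n => ℂ) i0).comp (LinearMap.proj i0)
  have hTT : T * T = T := by
    ext v j
    simp [T, Pi.single_apply]
  have hTtr : LinearMap.trace ℂ _ T = 1 := by
    rw [show T = (LinearMap.single ℂ (fun _ : Fin n => ℂ) i0).comp (LinearMap.proj i0) from rfl,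
      LinearMap.trace_comp_comm']
    have : (LinearMap.proj i0 : (Fin n → ℂ) →ₗ[ℂ] ℂ).comp (LinearMap.single ℂ (fun _ : Fin n => ℂ) i0) = LinearMap.id := by
      ext
      simp
    rw [this, LinearMap.trace_id, Module.finrank_self, Nat.cast_one]
  obtain ⟨a, ha⟩ := Cfsg.Agent.Blocks.ModularTraces.exists_density (ι := Unit) (V := fun _ => Fin n → ℂ)
    (fun _ => σ) (fun _ => hσ) (fun i j hij => absurd (Subsingleton.elim i j) hij) (fun _ => T)
  have ha' : σ.asAlgebraHom a = T := ha ()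
  set z := idem ({ρ} : Set (IrrCharacter G)) with hz
  have hzz : z * z = z := idem_mul_idem _
  have hzc : ∀ x, z * x = x * z := idem_comm _
  -- elements with the factor `z` are determined by `σ`
  have key : ∀ x : MonoidAlgebra ℂ G, z * x = x → σ.asAlgebraHom x = 0 → x = 0 := by
    intro x hx h0
    have := finite_irr (G := G)
    have := Fintype.ofFinite (IrrCharacter G)
    have hG : (Nat.card G : ℂ) ≠ 0 := card_ne_zero_complex
    ext g
    have h1 : (Nat.card G : ℂ) * (x * sg g⁻¹).coeff 1 = 0 := by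
      rw [coeff_one]
      refine Finset.sum_eq_zero fun χ _ => ?_
      by_cases hχ : χ = ρ
      · rw [hχ, ← hρ, ← trace_asAlgebraHom, map_mul, h0, zero_mul, map_zero, mul_zero]
      · rw [← hx, mul_assoc, lin_idem_mul, if_neg (by simpa using hχ), mul_zero]
    rw [coeff_mul_single] at h1
    rw [(mul_eq_zero.1 h1).resolve_left hG]
    rfl
  have hσz : σ.asAlgebraHom z = 1 := by
    obtain ⟨c, hc⟩ := exists_scalar σ hσ (idem_mem_center ({ρ} : Set (IrrCharacter G)))
    have h1 : c = 1 := by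
      have h2 := omega_idem ({ρ} : Set (IrrCharacter G)) ρ
      rw [if_pos (Set.mem_singleton ρ), omega_def, ← hρ, ← trace_asAlgebraHom, hc,
        Algebra.algebraMap_eq_smul_one, map_smul, LinearMap.trace_one, smul_eq_mul, Representation.char_one] at h2
      have h3 : (Module.finrank ℂ (Fin n → ℂ) : ℂ) ≠ 0 := by
        rw [Module.finrank_fin_fun]; exact_mod_cast hn.ne'
      rw [mul_div_cancel_right₀ _ h3] at h2
      exact h2
    rw [hz, hc, h1, map_one]
  refine ⟨z * a, ?_, ?_⟩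
  · rw [← sub_eq_zero]
    refine key _ ?_ ?_
    · have h1 : z * (z * a) = z * a := by rw [← mul_assoc, hzz]
      rw [mul_sub, ← mul_assoc z (z * a), h1]
    · rw [map_sub, map_mul, map_mul, hσz, one_mul, ha', hTT, sub_self]
  · intro χ
    rw [lin_idem_mul]
    by_cases hχ : χ = ρ
    · rw [if_pos (by simpa using hχ), if_pos hχ, hχ, ← hρ, ← trace_asAlgebraHom, ha', hTtr]
    · rw [if_neg (by simpa using hχ), if_neg hχ]


/-! ### Subgroups -/

section Em

variable {H K L : Type u} [Group H] [Group K] [Group L]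

/-- the map of group algebras -/
noncomputable def em (φ : H →* K) : MonoidAlgebra ℂ H →ₐ[ℂ] MonoidAlgebra ℂ K :=
  MonoidAlgebra.mapDomainAlgHom ℂ ℂ φ

theorem em_single (φ : H →* K) (h : H) (c : ℂ) :
    em φ (MonoidAlgebra.single h c) = MonoidAlgebra.single (φ h) c :=
  MonoidAlgebra.mapDomain_single

theorem em_em (φ : H →* K) (ψ : K →* L) (a : MonoidAlgebra ℂ H) : em ψ (em φ a) = em (ψ.comp φ) a := by
  induction a using MonoidAlgebra.induction_linear with
  | zero => simp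
  | add x y hx hy => simp only [map_add, hx, hy]
  | single g r => rw [em_single, em_single, em_single, MonoidHom.comp_apply]

theorem lin_em (φ : H →* K) (χ : K → ℂ) (a : MonoidAlgebra ℂ H) : lin χ (em φ a) = lin (fun h => χ (φ h)) a := by
  induction a using MonoidAlgebra.induction_linear with
  | zero => simp
  | add x y hx hy => simp only [map_add, hx, hy]
  | single g r => rw [em_single, lin_single, lin_single]

theorem coeff_em {φ : H →* K} (hφ : Function.Injective φ) (a : MonoidAlgebra ℂ H) (h : H) :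
    (em φ a).coeff (φ h) = a.coeff h := by
  classical
  induction a using MonoidAlgebra.induction_linear with
  | zero => rw [map_zero]; rfl
  | add x y hx hy =>
    rw [map_add, MonoidAlgebra.coeff_add, MonoidAlgebra.coeff_add, Finsupp.add_apply, Finsupp.add_apply, hx, hy]
  | single g r =>
    rw [em_single, MonoidAlgebra.coeff_single, MonoidAlgebra.coeff_single, Finsupp.single_apply,
      Finsupp.single_apply, hφ.eq_iff]

theorem coeff_em_off (φ : H →* K) (a : MonoidAlgebra ℂ H) {k : K} (hk : ∀ h, φ h ≠ k) : (em φ a).coeff k = 0 := by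
  classical
  induction a using MonoidAlgebra.induction_linear with
  | zero => rw [map_zero]; rfl
  | add x y hx hy =>
    rw [map_add, MonoidAlgebra.coeff_add, Finsupp.add_apply, hx, hy, add_zero]
  | single g r =>
    rw [em_single, MonoidAlgebra.coeff_single, Finsupp.single_apply, if_neg (hk g)]

/-- restriction of the coefficients -/
noncomputable def rs [Finite H] (φ : H →* K) (a : MonoidAlgebra ℂ K) : MonoidAlgebra ℂ H :=
  .ofCoeff (Finsupp.equivFunOnFinite.symm fun h => a.coeff (φ h))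

theorem coeff_rs [Finite H] (φ : H →* K) (a : MonoidAlgebra ℂ K) (h : H) : (rs φ a).coeff h = a.coeff (φ h) := rfl

theorem rs_em_mul [Finite H] (φ : H →* K) (x : MonoidAlgebra ℂ H) (a : MonoidAlgebra ℂ K) :
    rs φ (em φ x * a) = x * rs φ a := by
  induction x using MonoidAlgebra.induction_linear with
  | zero =>
    ext h
    rw [coeff_rs, map_zero, zero_mul, zero_mul]
    rfl
  | add x y hx hy =>
    ext h
    rw [coeff_rs, map_add, add_mul, add_mul, MonoidAlgebra.coeff_add, MonoidAlgebra.coeff_add, Finsupp.add_apply,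
      Finsupp.add_apply, ← hx, ← hy, coeff_rs, coeff_rs]
  | single g r =>
    ext h
    rw [coeff_rs, em_single, MonoidAlgebra.coeff_single_mul_apply, MonoidAlgebra.coeff_single_mul_apply, coeff_rs,
      φ.map_mul, φ.map_inv]

theorem rs_mul_em [Finite H] (φ : H →* K) (x : MonoidAlgebra ℂ H) (a : MonoidAlgebra ℂ K) :
    rs φ (a * em φ x) = rs φ a * x := by
  induction x using MonoidAlgebra.induction_linear with
  | zero =>
    ext h
    rw [coeff_rs, map_zero, mul_zero, mul_zero]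
    rfl
  | add x y hx hy =>
    ext h
    rw [coeff_rs, map_add, mul_add, mul_add, MonoidAlgebra.coeff_add, MonoidAlgebra.coeff_add, Finsupp.add_apply,
      Finsupp.add_apply, ← hx, ← hy, coeff_rs, coeff_rs]
  | single g r =>
    ext h
    rw [coeff_rs, em_single, MonoidAlgebra.coeff_mul_single_apply, MonoidAlgebra.coeff_mul_single_apply, coeff_rs,
      φ.map_mul, φ.map_inv]

/-- `f` affords `μ` -/
def Prim (f : MonoidAlgebra ℂ H) (μ : IrrCharacter H) : Prop :=
  f * f = f ∧ ∀ χ : IrrCharacter H, lin (χ : H → ℂ) f = (open scoped Classical in if χ = μ then 1 else 0)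

theorem Prim.self {f : MonoidAlgebra ℂ H} {μ : IrrCharacter H} (h : Prim f μ) : lin (μ : H → ℂ) f = 1 := by
  rw [h.2, if_pos rfl]

theorem Prim.ne {f : MonoidAlgebra ℂ H} {μ : IrrCharacter H} (h : Prim f μ) {χ : IrrCharacter H} (hχ : χ ≠ μ) :
    lin (χ : H → ℂ) f = 0 := by
  rw [h.2, if_neg hχ]

theorem Prim.coeff [Finite H] {f : MonoidAlgebra ℂ H} {μ : IrrCharacter H} (h : Prim f μ) :
    (Nat.card H : ℂ) * f.coeff 1 = (μ : H → ℂ) 1 := by
  classical
  have := finite_irr (G := H)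
  have := Fintype.ofFinite (IrrCharacter H)
  rw [coeff_one, Finset.sum_eq_single μ, h.self, mul_one]
  · intro χ _ hχ
    rw [h.ne hχ, mul_zero]
  · exact fun h => absurd (Finset.mem_univ _) h

theorem Prim.aff [Fintype H] {f : MonoidAlgebra ℂ H} {μ : IrrCharacter H} (h : Prim f μ) : Aff f (μ : H → ℂ) := by
  classical
  refine aff_of_irr fun χ => ?_
  rw [classInner_irr χ.2 μ.2]
  by_cases hχ : χ = μ
  · rw [hχ, h.self, if_pos rfl]
  · rw [h.ne hχ, if_neg (fun e => hχ (Subtype.ext e))]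

theorem Prim.lin_em [Fintype H] {f : MonoidAlgebra ℂ H} {μ : IrrCharacter H} (h : Prim f μ) (φ : H →* K) {χ : K → ℂ}
    (hχ : IsClassFunction K χ) : lin χ (em φ f) = classInner (fun x => χ (φ x)) (μ : H → ℂ) := by
  rw [HT.lin_em]
  refine h.aff _ fun g x => ?_
  simp only [map_mul, map_inv]
  exact hχ _ _

theorem Prim.rank_one [Finite H] {f : MonoidAlgebra ℂ H} {μ : IrrCharacter H} (h : Prim f μ) (x : MonoidAlgebra ℂ H) :
    ∃ c : ℂ, f * x * f = c • f :=
  HT.rank_one h.1 h.self (fun _ hχ => h.ne hχ) x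

/-- the coefficients on a subgroup of an element of `f A f` -/
theorem Prim.coeff_sub [Finite H] {f : MonoidAlgebra ℂ H} {μ : IrrCharacter H} (h : Prim f μ) (φ : H →* K)
    {a : MonoidAlgebra ℂ K} (h1 : em φ f * a = a) (h2 : a * em φ f = a) :
    ∃ c : ℂ, c * f.coeff 1 = a.coeff 1 ∧ ∀ x : H, a.coeff (φ x) = c * f.coeff x := by
  obtain ⟨c, hc⟩ := h.rank_one (rs φ a)
  rw [← rs_em_mul, h1, ← rs_mul_em, h2] at hc
  have h3 : ∀ x : H, a.coeff (φ x) = c * f.coeff x := by
    intro x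
    rw [← coeff_rs, hc, MonoidAlgebra.coeff_smul, Finsupp.smul_apply, smul_eq_mul]
  refine ⟨c, ?_, h3⟩
  rw [← h3, map_one]

/-- idempotents refined by a central one -/
theorem Prim.up [Finite K] {f : MonoidAlgebra ℂ K} (hf : f * f = f) (ψ : IrrCharacter K)
    (h1 : lin (ψ : K → ℂ) f = 1) : Prim (idem {ψ} * f) ψ := by
  classical
  refine ⟨?_, fun χ => ?_⟩
  · calc idem {ψ} * f * (idem {ψ} * f) = idem {ψ} * (f * idem {ψ}) * f := by noncomm_ring
      _ = idem {ψ} * f := by rw [← idem_comm, ← mul_assoc, idem_mul_idem, mul_assoc, hf]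
  · rw [lin_idem_mul]
    by_cases hχ : χ = ψ
    · rw [if_pos (by simpa using hχ), if_pos hχ, hχ, h1]
    · rw [if_neg (by simpa using hχ), if_neg hχ]

theorem kill [Finite K] {χ : K → ℂ} (hχ : IsIrrCharacter K χ) {e : MonoidAlgebra ℂ K} (he : e * e = e)
    (h0 : lin χ e = 0) (b : MonoidAlgebra ℂ K) : lin χ (e * b) = 0 := by
  obtain ⟨n, ρ, hρ, rfl⟩ := hχ
  have h1 : IsIdempotentElem (ρ.asAlgebraHom e) := by
    unfold IsIdempotentElem
    rw [← map_mul, he]
  have h2 : ρ.asAlgebraHom e = 0 := by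
    refine LinearMap.IsIdempotentElem.eq_zero_of_trace_eq_zero h1 ?_
    rw [trace_asAlgebraHom]
    exact h0
  rw [← trace_asAlgebraHom, map_mul, h2, zero_mul, map_zero]

/-- in a representation where `e` has rank one, `p ≤ e` acts as `0` or `e` -/
theorem rank_eq [Finite K] {χ : K → ℂ} (hχ : IsIrrCharacter K χ) {e p : MonoidAlgebra ℂ K} (he : e * e = e)
    (hp : p * p = p) (hep : e * p = p) (hpe : p * e = p) (h1 : lin χ e = 1) (h0 : lin χ p ≠ 0)
    (b : MonoidAlgebra ℂ K) : lin χ (p * b) = lin χ (e * b) := by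
  have h2 : (e - p) * (e - p) = e - p := by
    rw [mul_sub, sub_mul, sub_mul, he, hep, hpe, hp]
    abel
  obtain ⟨m, hm⟩ := exists_nat hχ hp
  obtain ⟨k, hk⟩ := exists_nat hχ h2
  rw [map_sub, h1, hm] at hk
  rw [hm] at h0
  have h3 : m + k = 1 := by
    have : (m : ℂ) + k = 1 := by rw [← hk]; ring
    exact_mod_cast this
  have h4 : m ≠ 0 := by
    rintro rfl
    exact h0 (by norm_num)
  have h5 : m = 1 := by omega
  have h6 : lin χ (e - p) = 0 := by
    rw [map_sub, h1, hm, h5]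
    norm_num
  have h7 := kill hχ h2 h6 b
  rw [sub_mul, map_sub, sub_eq_zero] at h7
  exact h7.symm

/-- the induced character is irreducible -/
theorem prim_of_degree [Finite K] {e : MonoidAlgebra ℂ K} (he : e * e = e) (κ : IrrCharacter K)
    (h0 : lin (κ : K → ℂ) e ≠ 0) (h1 : (Nat.card K : ℂ) * e.coeff 1 = (κ : K → ℂ) 1) : Prim e κ := by
  classical
  have := finite_irr (G := K)
  have := Fintype.ofFinite (IrrCharacter K)
  choose m hm using fun χ : IrrCharacter K => exists_nat χ.2 he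
  choose d hd0 hd using fun χ : IrrCharacter K => isIrr_apply_one χ.2
  rw [coeff_one] at h1
  have h2 : ∑ χ : IrrCharacter K, d χ * m χ = d κ := by
    have : ((∑ χ : IrrCharacter K, d χ * m χ : ℕ) : ℂ) = (d κ : ℂ) := by
      rw [← hd, ← h1]
      push_cast
      exact Finset.sum_congr rfl fun χ _ => by rw [hd, hm]
    exact_mod_cast this
  have h3 : 0 < m κ := by
    rcases Nat.eq_zero_or_pos (m κ) with h | h
    · exact absurd (by rw [hm, h, Nat.cast_zero]) h0
    · exact h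
  rw [← Finset.add_sum_erase _ _ (Finset.mem_univ κ)] at h2
  have h4 : d κ * m κ ≥ d κ * 1 := Nat.mul_le_mul_left _ h3
  have h5 : ∑ χ ∈ Finset.univ.erase κ, d χ * m χ = 0 := by omega
  have h6 : d κ * m κ = d κ * 1 := by omega
  have h7 : m κ = 1 := Nat.eq_of_mul_eq_mul_left (hd0 κ) h6
  refine ⟨he, fun χ => ?_⟩
  by_cases hχ : χ = κ
  · rw [if_pos hχ, hχ, hm, h7, Nat.cast_one]
  · rw [if_neg hχ, hm]
    have h8 := (Finset.sum_eq_zero_iff.1 h5) χ (Finset.mem_erase.2 ⟨hχ, Finset.mem_univ _⟩)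
    have h9 := (Nat.mul_eq_zero.1 h8).resolve_left (hd0 χ).ne'
    rw [h9, Nat.cast_zero]

theorem coeff_mul_one [Fintype K] (a b : MonoidAlgebra ℂ K) : (a * b).coeff 1 = ∑ g : K, a.coeff g * b.coeff g⁻¹ := by
  rw [MonoidAlgebra.coeff_mul_apply_left, Finsupp.sum_fintype _ _ (by simp)]
  exact Finset.sum_congr rfl fun g _ => by rw [mul_one]

theorem coeff_mul_of [Finite K] {a b a' b' : MonoidAlgebra ℂ K} {c : ℂ}
    (h : ∀ g, a.coeff g * b.coeff g⁻¹ = c * (a'.coeff g * b'.coeff g⁻¹)) :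
    (a * b).coeff 1 = c * (a' * b').coeff 1 := by
  have := Fintype.ofFinite K
  rw [coeff_mul_one, coeff_mul_one, Finset.mul_sum]
  exact Finset.sum_congr rfl fun g _ => h g

end Em

section Sub

variable {G : Type u} [Group G]

theorem coeff_em_mem (H : Subgroup G) (a : MonoidAlgebra ℂ H) {g : G} (hg : g ∈ H) :
    (em H.subtype a).coeff g = a.coeff ⟨g, hg⟩ :=
  coeff_em H.subtype_injective a ⟨g, hg⟩

theorem coeff_em_notMem (H : Subgroup G) (a : MonoidAlgebra ℂ H) {g : G} (hg : g ∉ H) :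
    (em H.subtype a).coeff g = 0 :=
  coeff_em_off _ _ fun h e => hg (e ▸ h.2)

theorem em_incl {H K : Subgroup G} (h : H ≤ K) (a : MonoidAlgebra ℂ H) :
    em K.subtype (em (Subgroup.inclusion h) a) = em H.subtype a := em_em _ _ _

theorem coeff_em_incl_one {H K : Subgroup G} (h : H ≤ K) (a : MonoidAlgebra ℂ H) :
    (em (Subgroup.inclusion h) a).coeff 1 = a.coeff 1 := by
  conv_lhs => rw [← map_one (Subgroup.inclusion h)]
  exact coeff_em (Subgroup.inclusion_injective h) a 1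

theorem coeff_em_one (H : Subgroup G) (a : MonoidAlgebra ℂ H) : (em H.subtype a).coeff 1 = a.coeff 1 :=
  coeff_em_mem H a H.one_mem

theorem up_left [Finite G] {f : MonoidAlgebra ℂ G} (hf : f * f = f) (A : Set (IrrCharacter G)) :
    f * (idem A * f) = idem A * f := by
  rw [← mul_assoc, ← idem_comm, mul_assoc, hf]

theorem up_right [Finite G] {f : MonoidAlgebra ℂ G} (hf : f * f = f) (A : Set (IrrCharacter G)) :
    idem A * f * f = idem A * f := by
  rw [mul_assoc, hf]

theorem em_idem {H K : Type u} [Group H] [Group K] (φ : H →* K) {a : MonoidAlgebra ℂ H} (h : a * a = a) :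
    em φ a * em φ a = em φ a := by
  rw [← map_mul, h]

end Sub

/-- **T1, the trace lemma** (purely formal, group algebra of `G`).  -/
theorem trace_lemma {G : Type u} [Group G] [Fintype G] (Q M P₁ P₂ T : Subgroup G)
    [Fintype Q] [Fintype M] [Fintype P₁] [Fintype P₂] [Fintype T] [Fintype ↥(P₁ ⊓ P₂)]
    (h1Q : P₁ ≤ Q) (h2M : P₂ ≤ M) (h1T : P₁ ≤ T) (h2T : P₂ ≤ T) (hD : Q ⊓ M ≤ P₁ ⊓ P₂)
    (hcard : Nat.card P₁ = Nat.card P₂)
    (μ₁ : IrrCharacter P₁) (μ₂ : IrrCharacter P₂) (ν : IrrCharacter ↥(P₁ ⊓ P₂))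
    (hν1 : ∀ d : ↥(P₁ ⊓ P₂), (μ₁ : P₁ → ℂ) ⟨d, d.2.1⟩ = (ν : ↥(P₁ ⊓ P₂) → ℂ) d)
    (hν2 : ∀ d : ↥(P₁ ⊓ P₂), (μ₂ : P₂ → ℂ) ⟨d, d.2.2⟩ = (ν : ↥(P₁ ⊓ P₂) → ℂ) d)
    (κ : IrrCharacter T) (hκ : classInner (fun x : P₁ => (κ : T → ℂ) ⟨x, h1T x.2⟩) (μ₁ : P₁ → ℂ) ≠ 0)
    (hκ1 : (κ : T → ℂ) 1 * Nat.card P₁ = Nat.card T * (μ₁ : P₁ → ℂ) 1)
    (ψ : IrrCharacter Q) (hψ : classInner (fun x : P₁ => (ψ : Q → ℂ) ⟨x, h1Q x.2⟩) (μ₁ : P₁ → ℂ) = 1)
    (y : IrrCharacter M) (hy : classInner (fun x : P₂ => (y : M → ℂ) ⟨x, h2M x.2⟩) (μ₂ : P₂ → ℂ) = 1)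
    (hX : ∀ X : IrrCharacter G, classInner (fun x : Q => (X : G → ℂ) x) (ψ : Q → ℂ) ≠ 0 →
      classInner (fun x : P₁ => (X : G → ℂ) x) (μ₁ : P₁ → ℂ) = 1) :
    ∑ᶠ X ∈ {X : IrrCharacter G | classInner (fun x : Q => (X : G → ℂ) x) (ψ : Q → ℂ) ≠ 0 ∧
        classInner (fun x : M => (X : G → ℂ) x) (y : M → ℂ) ≠ 0}, (X : G → ℂ) 1 =
      ((y : M → ℂ) 1 * Nat.card P₂ / (Nat.card M * (μ₂ : P₂ → ℂ) 1)) *
        (Nat.card G * (ψ : Q → ℂ) 1 / Nat.card Q) := by
  classical
  have := finite_irr (G := G)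
  have := Fintype.ofFinite (IrrCharacter G)
  have := finite_irr (G := T)
  have := Fintype.ofFinite (IrrCharacter T)
  -- (0) the primitive idempotent of `D0`
  obtain ⟨e0, he0⟩ := exists_prim ν
  have P0 : Prim e0 ν := he0
  clear he0
  -- (1) the primitive idempotents of `P₁`, `P₂`
  let i1 : ↥(P₁ ⊓ P₂) →* P₁ := Subgroup.inclusion inf_le_left
  let i2 : ↥(P₁ ⊓ P₂) →* P₂ := Subgroup.inclusion inf_le_right
  have f1 : em i1 e0 * em i1 e0 = em i1 e0 := em_idem _ P0.1
  have f2 : em i2 e0 * em i2 e0 = em i2 e0 := em_idem _ P0.1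
  have E1 : lin (μ₁ : P₁ → ℂ) (em i1 e0) = 1 := by
    rw [lin_em, ← P0.self]
    congr 1
    congr 1
    exact funext fun d => hν1 d
  have E2 : lin (μ₂ : P₂ → ℂ) (em i2 e0) = 1 := by
    rw [lin_em, ← P0.self]
    congr 1
    congr 1
    exact funext fun d => hν2 d
  have Q1 : Prim (idem {μ₁} * em i1 e0) μ₁ := Prim.up f1 μ₁ E1
  have Q2 : Prim (idem {μ₂} * em i2 e0) μ₂ := Prim.up f2 μ₂ E2
  obtain ⟨c1, hc1, hc1'⟩ := P0.coeff_sub i1 (up_left f1 {μ₁}) (up_right f1 {μ₁})
  obtain ⟨c2, hc2, hc2'⟩ := P0.coeff_sub i2 (up_left f2 {μ₂}) (up_right f2 {μ₂})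
  generalize hu1 : idem {μ₁} * em i1 e0 = u1 at *
  generalize hu2 : idem {μ₂} * em i2 e0 = u2 at *
  have hP1 : (Nat.card P₁ : ℂ) ≠ 0 := card_ne_zero_complex
  have hP2 : (Nat.card P₂ : ℂ) ≠ 0 := card_ne_zero_complex
  have hcT : (Nat.card T : ℂ) ≠ 0 := card_ne_zero_complex
  have hcG : (Nat.card G : ℂ) ≠ 0 := card_ne_zero_complex
  have hcQ : (Nat.card Q : ℂ) ≠ 0 := card_ne_zero_complex
  have hcM : (Nat.card M : ℂ) ≠ 0 := card_ne_zero_complex
  have hm1 : (μ₁ : P₁ → ℂ) 1 ≠ 0 := isIrr_apply_one_ne_zero μ₁.2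
  have hm2 : (μ₂ : P₂ → ℂ) 1 ≠ 0 := isIrr_apply_one_ne_zero μ₂.2
  have hm12 : (μ₁ : P₁ → ℂ) 1 = (μ₂ : P₂ → ℂ) 1 := (hν1 1).trans (hν2 1).symm
  have hu1c : u1.coeff 1 ≠ 0 := by
    intro h
    have := Q1.coeff
    rw [h, mul_zero] at this
    exact hm1 this.symm
  have hu2c : u2.coeff 1 ≠ 0 := by
    intro h
    have := Q2.coeff
    rw [h, mul_zero] at this
    exact hm2 this.symm
  have hc1n : c1 ≠ 0 := by
    rintro rfl
    rw [zero_mul] at hc1
    exact hu1c hc1.symm
  have hc2n : c2 ≠ 0 := by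
    rintro rfl
    rw [zero_mul] at hc2
    exact hu2c hc2.symm
  have he0c : e0.coeff 1 ≠ 0 := by
    intro h
    rw [h, mul_zero] at hc1
    exact hu1c hc1.symm
  -- (2) the trace of the product
  have htau : (em P₁.subtype u1 * em P₂.subtype u2).coeff 1 ≠ 0 := by
    have h1 : (em P₁.subtype u1 * em P₂.subtype u2).coeff 1 =
        (c1 * c2) * (em (P₁ ⊓ P₂).subtype e0 * em (P₁ ⊓ P₂).subtype e0).coeff 1 := by
      refine coeff_mul_of fun g => ?_
      by_cases hg : g ∈ P₁ ⊓ P₂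
      · have hg' : g⁻¹ ∈ P₁ ⊓ P₂ := inv_mem hg
        rw [coeff_em_mem P₁ u1 hg.1, coeff_em_mem P₂ u2 hg'.2, coeff_em_mem _ e0 hg, coeff_em_mem _ e0 hg']
        have h2 := hc1' ⟨g, hg⟩
        have h3 := hc2' ⟨g⁻¹, hg'⟩
        have h2' : u1.coeff ⟨g, hg.1⟩ = c1 * e0.coeff ⟨g, hg⟩ := h2
        have h3' : u2.coeff ⟨g⁻¹, hg'.2⟩ = c2 * e0.coeff ⟨g⁻¹, hg'⟩ := h3
        rw [h2', h3']
        ring
      · rw [coeff_em_notMem _ e0 hg, zero_mul, mul_zero]
        by_cases h1 : g ∈ P₁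
        · have h2 : g⁻¹ ∉ P₂ := fun h => hg ⟨h1, by simpa using inv_mem h⟩
          rw [coeff_em_notMem _ u2 h2, mul_zero]
        · rw [coeff_em_notMem _ u1 h1, zero_mul]
    rw [h1, em_idem _ P0.1, coeff_em_one]
    exact mul_ne_zero (mul_ne_zero hc1n hc2n) he0c
  -- (3) the group `T`
  have T1 : em (Subgroup.inclusion h1T) u1 * em (Subgroup.inclusion h1T) u1 = em (Subgroup.inclusion h1T) u1 :=
    em_idem _ Q1.1
  have T2 : em (Subgroup.inclusion h2T) u2 * em (Subgroup.inclusion h2T) u2 = em (Subgroup.inclusion h2T) u2 :=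
    em_idem _ Q2.1
  have R1 : Prim (em (Subgroup.inclusion h1T) u1) κ := by
    refine prim_of_degree T1 κ ?_ ?_
    · rw [Q1.lin_em _ (isIrr_isClassFunction κ.2)]
      exact hκ
    · rw [coeff_em_incl_one]
      refine mul_left_cancel₀ hP1 ?_
      have := Q1.coeff
      calc (Nat.card P₁ : ℂ) * (Nat.card T * u1.coeff 1) = Nat.card T * (Nat.card P₁ * u1.coeff 1) := by ring
        _ = Nat.card P₁ * (κ : T → ℂ) 1 := by rw [this, ← hκ1, mul_comm]
  have htauT : (em (Subgroup.inclusion h1T) u1 * em (Subgroup.inclusion h2T) u2).coeff 1 ≠ 0 := by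
    rw [← coeff_em_one T, map_mul, em_incl, em_incl]
    exact htau
  have hκT : lin (κ : T → ℂ) (em (Subgroup.inclusion h1T) u1 * em (Subgroup.inclusion h2T) u2) ≠ 0 := by
    intro h
    refine htauT ?_
    refine mul_left_cancel₀ hcT ?_
    rw [coeff_one, mul_zero]
    refine Finset.sum_eq_zero fun θ _ => ?_
    by_cases hθ : θ = κ
    · rw [hθ, h, mul_zero]
    · rw [kill θ.2 T1 (R1.ne hθ), mul_zero]
  have R2 : Prim (em (Subgroup.inclusion h2T) u2) κ := by
    refine prim_of_degree T2 κ ?_ ?_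
    · intro h
      refine hκT ?_
      rw [lin_comm κ.2]
      exact kill κ.2 T2 h _
    · rw [coeff_em_incl_one]
      refine mul_left_cancel₀ hP2 ?_
      have := Q2.coeff
      calc (Nat.card P₂ : ℂ) * (Nat.card T * u2.coeff 1) = Nat.card T * (Nat.card P₂ * u2.coeff 1) := by ring
        _ = Nat.card P₂ * (κ : T → ℂ) 1 := by rw [this, ← hm12, ← hκ1, hcard, mul_comm]
  obtain ⟨lam, hlam⟩ := R1.rank_one (em (Subgroup.inclusion h2T) u2)
  obtain ⟨lam', hlam'⟩ := R2.rank_one (em (Subgroup.inclusion h1T) u1)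
  have hl1 : lin (κ : T → ℂ) (em (Subgroup.inclusion h1T) u1 * em (Subgroup.inclusion h2T) u2) = lam := by
    have h1 := congrArg (lin (κ : T → ℂ)) hlam
    rw [map_smul, R1.self, smul_eq_mul, mul_one, lin_comm κ.2, ← mul_assoc, T1] at h1
    exact h1
  have hl2 : lin (κ : T → ℂ) (em (Subgroup.inclusion h1T) u1 * em (Subgroup.inclusion h2T) u2) = lam' := by
    have h1 := congrArg (lin (κ : T → ℂ)) hlam'
    rw [map_smul, R2.self, smul_eq_mul, mul_one, lin_comm κ.2, ← mul_assoc, T2, lin_comm κ.2] at h1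
    exact h1
  have hl : lam' = lam := hl2.symm.trans hl1
  have hlam0 : lam ≠ 0 := hl1 ▸ hκT
  rw [hl] at hlam'
  -- up to `G`
  have G1 : em P₁.subtype u1 * em P₂.subtype u2 * em P₁.subtype u1 = lam • em P₁.subtype u1 := by
    have h1 := congrArg (em T.subtype) hlam
    rwa [map_mul, map_mul, map_smul, em_incl, em_incl] at h1
  have G2 : em P₂.subtype u2 * em P₁.subtype u1 * em P₂.subtype u2 = lam • em P₂.subtype u2 := by
    have h1 := congrArg (em T.subtype) hlam'
    rwa [map_mul, map_mul, map_smul, em_incl, em_incl] at h1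
  have g1 : em P₁.subtype u1 * em P₁.subtype u1 = em P₁.subtype u1 := em_idem _ Q1.1
  have g2 : em P₂.subtype u2 * em P₂.subtype u2 = em P₂.subtype u2 := em_idem _ Q2.1
  have hX2 : ∀ X : IrrCharacter G, lin (X : G → ℂ) (em P₂.subtype u2) = lin (X : G → ℂ) (em P₁.subtype u1) :=
    fun X => lin_eq_of_conj g1 g2 hlam0 G1 G2 X
  have hXl : ∀ X : IrrCharacter G, lin (X : G → ℂ) (em P₁.subtype u1 * em P₂.subtype u2) =
      lam * lin (X : G → ℂ) (em P₁.subtype u1) := by
    intro X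
    have h1 := congrArg (lin (X : G → ℂ)) G1
    rwa [map_smul, smul_eq_mul, lin_comm X.2, ← mul_assoc, g1] at h1
  have hX1 : ∀ X : IrrCharacter G, lin (X : G → ℂ) (em P₁.subtype u1) =
      classInner (fun x : P₁ => (X : G → ℂ) x) (μ₁ : P₁ → ℂ) :=
    fun X => Q1.lin_em _ (isIrr_isClassFunction X.2)
  have hGtau : (Nat.card G : ℂ) * (em P₁.subtype u1 * em P₂.subtype u2).coeff 1 =
      lam * (Nat.card G * u1.coeff 1) := by
    rw [← coeff_em_one P₁ u1, coeff_one, coeff_one, Finset.mul_sum]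
    refine Finset.sum_congr rfl fun X _ => ?_
    rw [hXl]
    ring
  -- (4) the idempotents of `Q`, `M`
  have q1 : em (Subgroup.inclusion h1Q) u1 * em (Subgroup.inclusion h1Q) u1 = em (Subgroup.inclusion h1Q) u1 :=
    em_idem _ Q1.1
  have q2 : em (Subgroup.inclusion h2M) u2 * em (Subgroup.inclusion h2M) u2 = em (Subgroup.inclusion h2M) u2 :=
    em_idem _ Q2.1
  have S1 : Prim (idem {ψ} * em (Subgroup.inclusion h1Q) u1) ψ := by
    refine Prim.up q1 ψ ?_
    rw [Q1.lin_em _ (isIrr_isClassFunction ψ.2)]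
    exact hψ
  have S2 : Prim (idem {y} * em (Subgroup.inclusion h2M) u2) y := by
    refine Prim.up q2 y ?_
    rw [Q2.lin_em _ (isIrr_isClassFunction y.2)]
    exact hy
  have L1 := up_left q1 {ψ}
  have L1' := up_right q1 {ψ}
  have L2 := up_left q2 {y}
  have L2' := up_right q2 {y}
  obtain ⟨a1, ha1, ha1'⟩ := Q1.coeff_sub (Subgroup.inclusion h1Q) L1 L1'
  obtain ⟨a2, ha2, ha2'⟩ := Q2.coeff_sub (Subgroup.inclusion h2M) L2 L2'
  generalize hv1 : idem {ψ} * em (Subgroup.inclusion h1Q) u1 = v1 at *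
  generalize hv2 : idem {y} * em (Subgroup.inclusion h2M) u2 = v2 at *
  -- (5) the trace of the product
  have htau2 : (em Q.subtype v1 * em M.subtype v2).coeff 1 =
      (a1 * a2) * (em P₁.subtype u1 * em P₂.subtype u2).coeff 1 := by
    refine coeff_mul_of fun g => ?_
    by_cases hg : g ∈ P₁ ⊓ P₂
    · have hg' : g⁻¹ ∈ P₁ ⊓ P₂ := inv_mem hg
      rw [coeff_em_mem P₁ u1 hg.1, coeff_em_mem P₂ u2 hg'.2, coeff_em_mem Q v1 (h1Q hg.1),
        coeff_em_mem M v2 (h2M hg'.2)]
      have h2' : v1.coeff ⟨g, h1Q hg.1⟩ = a1 * u1.coeff ⟨g, hg.1⟩ := ha1' ⟨g, hg.1⟩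
      have h3' : v2.coeff ⟨g⁻¹, h2M hg'.2⟩ = a2 * u2.coeff ⟨g⁻¹, hg'.2⟩ := ha2' ⟨g⁻¹, hg'.2⟩
      rw [h2', h3']
      ring
    · have h1 : (em P₁.subtype u1).coeff g * (em P₂.subtype u2).coeff g⁻¹ = 0 := by
        by_cases h1 : g ∈ P₁
        · have h2 : g⁻¹ ∉ P₂ := fun h => hg ⟨h1, by simpa using inv_mem h⟩
          rw [coeff_em_notMem _ u2 h2, mul_zero]
        · rw [coeff_em_notMem _ u1 h1, zero_mul]
      rw [h1, mul_zero]
      by_cases h1 : g ∈ Q
      · have h2 : g⁻¹ ∉ M := fun h => hg (hD ⟨h1, by simpa using inv_mem h⟩)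
        rw [coeff_em_notMem _ v2 h2, mul_zero]
      · rw [coeff_em_notMem _ v1 h1, zero_mul]
  have r1 : em Q.subtype v1 * em Q.subtype v1 = em Q.subtype v1 := em_idem _ S1.1
  have r2 : em M.subtype v2 * em M.subtype v2 = em M.subtype v2 := em_idem _ S2.1
  have K1 : em P₁.subtype u1 * em Q.subtype v1 = em Q.subtype v1 := by
    rw [← em_incl h1Q, ← map_mul, L1]
  have K1' : em Q.subtype v1 * em P₁.subtype u1 = em Q.subtype v1 := by
    rw [← em_incl h1Q, ← map_mul, L1']
  have K2 : em P₂.subtype u2 * em M.subtype v2 = em M.subtype v2 := by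
    rw [← em_incl h2M, ← map_mul, L2]
  have K2' : em M.subtype v2 * em P₂.subtype u2 = em M.subtype v2 := by
    rw [← em_incl h2M, ← map_mul, L2']
  have hXp : ∀ X : IrrCharacter G, lin (X : G → ℂ) (em Q.subtype v1) =
      classInner (fun x : Q => (X : G → ℂ) x) (ψ : Q → ℂ) :=
    fun X => S1.lin_em _ (isIrr_isClassFunction X.2)
  have hXe : ∀ X : IrrCharacter G, lin (X : G → ℂ) (em M.subtype v2) =
      classInner (fun x : M => (X : G → ℂ) x) (y : M → ℂ) :=
    fun X => S2.lin_em _ (isIrr_isClassFunction X.2)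
  -- (6) the characters of `G`
  have hfin : ∀ X : IrrCharacter G, lin (X : G → ℂ) (em Q.subtype v1 * em M.subtype v2) =
      if classInner (fun x : Q => (X : G → ℂ) x) (ψ : Q → ℂ) ≠ 0 ∧
        classInner (fun x : M => (X : G → ℂ) x) (y : M → ℂ) ≠ 0 then lam else 0 := by
    intro X
    by_cases h1 : classInner (fun x : Q => (X : G → ℂ) x) (ψ : Q → ℂ) = 0
    · rw [if_neg (fun h => h.1 h1)]
      exact kill X.2 r1 ((hXp X).trans h1) _
    by_cases h2 : classInner (fun x : M => (X : G → ℂ) x) (y : M → ℂ) = 0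
    · rw [if_neg (fun h => h.2 h2), lin_comm X.2]
      exact kill X.2 r2 ((hXe X).trans h2) _
    rw [if_pos ⟨h1, h2⟩]
    have h3 : lin (X : G → ℂ) (em P₁.subtype u1) = 1 := by rw [hX1, hX X h1]
    have h4 : lin (X : G → ℂ) (em P₂.subtype u2) = 1 := by rw [hX2, h3]
    rw [rank_eq X.2 g1 r1 K1 K1' h3 (by rw [hXp]; exact h1), lin_comm X.2,
      rank_eq X.2 g2 r2 K2 K2' h4 (by rw [hXe]; exact h2), lin_comm X.2, hXl, h3, mul_one]
  -- the conclusion
  have hsum : lam * ∑ᶠ X ∈ {X : IrrCharacter G | classInner (fun x : Q => (X : G → ℂ) x) (ψ : Q → ℂ) ≠ 0 ∧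
        classInner (fun x : M => (X : G → ℂ) x) (y : M → ℂ) ≠ 0}, (X : G → ℂ) 1 =
      Nat.card G * (em Q.subtype v1 * em M.subtype v2).coeff 1 := by
    rw [coeff_one, finsum_mem_def, finsum_eq_sum_of_fintype, Finset.mul_sum]
    refine Finset.sum_congr rfl fun X _ => ?_
    rw [hfin, Set.indicator_apply]
    simp only [Set.mem_ofPred_eq]
    split_ifs
    · ring
    · ring
  refine mul_left_cancel₀ hlam0 ?_
  rw [hsum, htau2]
  have h1 := Q1.coeff
  have h2 := Q2.coeff
  have h3 := S1.coeff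
  have h4 := S2.coeff
  have h5 : a2 = ((y : M → ℂ) 1 * Nat.card P₂ / (Nat.card M * (μ₂ : P₂ → ℂ) 1)) := by
    rw [← h4, ← h2, ← ha2]
    field_simp
  have h6 : a1 * u1.coeff 1 = (ψ : Q → ℂ) 1 / Nat.card Q := by
    rw [← h3, ha1]
    field_simp
  calc (Nat.card G : ℂ) * (a1 * a2 * (em P₁.subtype u1 * em P₂.subtype u2).coeff 1)
      = a1 * a2 * (Nat.card G * (em P₁.subtype u1 * em P₂.subtype u2).coeff 1) := by ring
    _ = lam * (a2 * (Nat.card G * (a1 * u1.coeff 1))) := by rw [hGtau]; ring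
    _ = _ := by rw [h6, h5]; ring

end Cfsg.Agent.H992.HT
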